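import Cfsg.Agent.Char.Zassenhaus
import Cfsg.Agent.Pres.SylowSub

/-!
# Doubly transitive groups with an involution centraliser of constant fixity: counting
-/

set_option autoImplicit false

namespace Cfsg.Agent.Fix2T

open Subgroup MulAction Finset

variable {G Ω : Type*} [Group G] [MulAction G Ω]

variable (G Ω) in
/-- The consequences of the hypothesis which are used later. -/
structure Hyp (i : ℕ) : Prop where
  two : IsMultiplyPretransitive G Ω 2
  sqr : ∀ (s : G) (a b : Ω), a ≠ b → s • a = b → s • b = a → s * s = 1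
  fix : ∀ s : G, s ≠ 1 → s * s = 1 → ∀ g, g ≠ 1 → g * s = s * g → (fixedBy Ω g).ncard = i
  card : ∀ s : G, s ≠ 1 → s * s = 1 → Nat.card (centralizer ({s} : Set G)) + i = Nat.card Ω
  ex : ∃ t : G, t ≠ 1 ∧ t * t = 1

theorem exists_moved [FaithfulSMul G Ω] {t : G} (t1 : t ≠ 1) : ∃ x : Ω, t • x ≠ x := by
  by_contra! h
  exact t1 (eq_of_smul_eq_smul fun x : Ω => by rw [h, one_smul])

theorem ncard_fixedBy_conj (g x : G) : (fixedBy Ω (g * x * g⁻¹)).ncard = (fixedBy Ω x).ncard := by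
  rw [← smul_fixedBy, Set.ncard_smul_set]

variable [Finite G] [Finite Ω] [FaithfulSMul G Ω]

theorem card_dvd {t : G} {i : ℕ}
    (hC : ∀ g, g ≠ 1 → g * t = t * g → (fixedBy Ω g).ncard = i) :
    (Nat.card (centralizer ({t} : Set G)) : ℤ) ∣ Nat.card Ω - i := by
  classical
  have := Fintype.ofFinite (centralizer ({t} : Set G))
  have h1 := Char.sum_fixedBy_nat (centralizer ({t} : Set G)) Ω
  rw [← add_sum_erase _ _ (mem_univ 1), fixedBy_one_eq_univ, Nat.card_univ,
    sum_congr rfl (f := fun g : centralizer ({t} : Set G) => Nat.card (fixedBy Ω g)) (g := fun _ => i)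
      fun g hg => hC g (by simpa using hg) (mem_centralizer_singleton_iff.mp g.2), sum_const, card_erase_of_mem (mem_univ _),
    card_univ, ← Nat.card_eq_fintype_card, smul_eq_mul] at h1
  zify [Nat.one_le_iff_ne_zero.mpr (Nat.card_pos (α := centralizer ({t} : Set G))).ne'] at h1
  exact ⟨Nat.card (orbitRel.Quotient (centralizer ({t} : Set G)) Ω) - i, by linear_combination h1⟩

theorem hyp_of (h2 : IsMultiplyPretransitive G Ω 2) {t : G} (t1 : t ≠ 1) (tt : t * t = 1) {i : ℕ}
    (hC : ∀ g, g ≠ 1 → g * t = t * g → (fixedBy Ω g).ncard = i) : Hyp G Ω i := by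
  classical
  have := Fintype.ofFinite G
  have := Fintype.ofFinite Ω
  obtain ⟨b, hb⟩ := exists_moved (Ω := Ω) t1
  have h1 : ∀ u v : Ω, ∃ g : G, u ≠ v → g • b = u ∧ g • t • b = v := fun u v => by
    by_cases h : u = v
    · exact ⟨1, fun h' => absurd h h'⟩
    · exact (is_two_pretransitive_iff.mp h2 hb.symm h).imp fun _ h _ => h
  choose h hh using h1
  let ψ : G × {x : Ω // t • x ≠ x} → G := fun p => p.1 * t * p.1⁻¹ * h (p.1 • p.2.1) (p.1 • t • p.2.1)
  have h3 : ∀ p, ψ p • b = p.1 • t • p.2.1 ∧ ψ p • t • b = p.1 • p.2.1 := fun p => by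
    obtain ⟨h3, h4⟩ := hh (p.1 • p.2.1) (p.1 • t • p.2.1) (fun e => p.2.2 (smul_left_cancel _ e).symm)
    simp only [ψ, mul_smul, h3, h4, inv_smul_smul]
    exact ⟨trivial, by rw [← mul_smul t, tt, one_smul]⟩
  have h4 := card_le_mul_card_image (f := ψ) univ (Nat.card (centralizer ({t} : Set G))) fun y hy => by
    obtain ⟨p, -, rfl⟩ := mem_image.mp hy
    rw [← Nat.card_eq_finsetCard]
    refine Nat.card_le_card_of_injective (fun q => ⟨p.1⁻¹ * q.1.1, ?_⟩) fun q r e => ?_
    · obtain ⟨q, hq⟩ := q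
      have e := (mem_filter.mp hq).2
      have e1 : q.1 * t * q.1⁻¹ * h (q.1 • q.2.1) (q.1 • t • q.2.1) =
        p.1 * t * p.1⁻¹ * h (p.1 • p.2.1) (p.1 • t • p.2.1) := e
      rw [← (h3 q).1, ← (h3 q).2, ← (h3 p).1, ← (h3 p).2, e, mul_left_inj] at e1
      rw [mem_centralizer_singleton_iff]
      calc _ = p.1⁻¹ * (q.1 * t * q.1⁻¹) * q.1 := by group
        _ = _ := by rw [e1]; group
    · have e1 : q.1.1 = r.1.1 := mul_left_cancel (congrArg Subtype.val e)
      have e2 := (mem_filter.mp q.2).2.trans (mem_filter.mp r.2).2.symm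
      refine Subtype.ext (Prod.ext e1 (Subtype.ext (smul_left_cancel q.1.1 ?_)))
      rw [← (h3 _).2, e2, (h3 _).2, e1]
  have h5 : Fintype.card {x : Ω // t • x ≠ x} + i = Nat.card Ω := by
    rw [Fintype.card_subtype_compl, ← hC t t1 rfl, ← Nat.card_coe_set_eq, Nat.card_eq_fintype_card,
      Nat.card_eq_fintype_card]
    exact Nat.sub_add_cancel (Fintype.card_subtype_le _)
  have h6 : 0 < Fintype.card {x : Ω // t • x ≠ x} := Fintype.card_pos_iff.mpr ⟨⟨b, hb⟩⟩
  have h7 : Nat.card (centralizer ({t} : Set G)) ≤ Fintype.card {x : Ω // t • x ≠ x} := by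
    have := Int.le_of_dvd (by omega) (card_dvd hC)
    omega
  rw [card_univ, Fintype.card_prod] at h4
  have h8 := card_le_univ (image ψ univ)
  have h9 := Fintype.card_pos (α := G)
  have h10 : image ψ univ = univ := eq_univ_of_card _ (by nlinarith)
  have h11 : Nat.card (centralizer ({t} : Set G)) + i = Nat.card Ω := by nlinarith
  have h12 : ∀ (s : G) (u v : Ω), u ≠ v → s • u = v → s • v = u → ∃ g, g * t * g⁻¹ = s := by
    intro s u v huv su sv
    obtain ⟨p, -, hp⟩ := mem_image.mp (h10 ▸ mem_univ (s * h u v))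
    obtain ⟨e1, e2⟩ := h3 p
    rw [hp, mul_smul] at e1 e2
    rw [(hh u v huv).1, su] at e1
    rw [(hh u v huv).2, sv] at e2
    simp only [ψ] at hp
    rw [← e1, ← e2, mul_left_inj] at hp
    exact ⟨_, hp⟩
  have h13 : ∀ s : G, s ≠ 1 → s * s = 1 → ∃ g, g * t * g⁻¹ = s := fun s s1 ss => by
    obtain ⟨x, hx⟩ := exists_moved (Ω := Ω) s1
    exact h12 s x _ hx.symm rfl (by rw [← mul_smul, ss, one_smul])
  refine ⟨h2, fun s u v huv su sv => ?_, fun s s1 ss g g1 gs => ?_, fun s s1 ss => ?_, t, t1, tt⟩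
  · obtain ⟨g, rfl⟩ := h12 s u v huv su sv
    rw [conj_mul, tt, mul_one, mul_inv_cancel]
  · obtain ⟨x, rfl⟩ := h13 s s1 ss
    rw [← ncard_fixedBy_conj x⁻¹]
    refine hC _ (by rwa [Ne, conj_eq_one_iff]) ?_
    calc _ = x⁻¹ * (g * (x * t * x⁻¹)) * x := by group
      _ = _ := by rw [gs]; group
  · obtain ⟨x, rfl⟩ := h13 s s1 ss
    rw [← h11]
    congr 1
    refine (Nat.card_congr ((MulAut.conj x).toEquiv.subtypeEquiv fun g => ?_)).symm
    simp [mem_centralizer_singleton_iff, ← mul_assoc]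
    simp [mul_assoc]

end Cfsg.Agent.Fix2T
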