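import Cfsg.Agent.Fix2T.Basic
import Cfsg.Agent.Zass.Main
import Cfsg.Agent.Zass.SzId
import Cfsg.Agent.Block.ZStar
import Cfsg.Agent.OddOrderHyp

/-!
# Doubly transitive groups with an involution centraliser of constant fixity
-/

set_option autoImplicit false

namespace Cfsg.Agent.Fix2T

open Subgroup MulAction Pointwise

universe u

section
variable {G Ω : Type*} [Group G] [MulAction G Ω] {i : ℕ}

theorem Hyp.inv (h : Hyp G Ω i) {s x : G} {a b : Ω} (hab : a ≠ b) (sa : s • a = b) (sb : s • b = a)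
    (xa : x • a = a) (xb : x • b = b) : s * x * s⁻¹ = x⁻¹ := by
  have h1 := h.sqr (s * x) a b hab (by rw [mul_smul, xa, sa]) (by rw [mul_smul, xb, sb])
  rw [inv_eq_of_mul_eq_one_right (h.sqr s a b hab sa sb), eq_inv_iff_mul_eq_one, mul_assoc, h1]

theorem Hyp.swap (h : Hyp G Ω i) {a b : Ω} (hab : a ≠ b) : ∃ s : G, s • a = b ∧ s • b = a :=
  is_two_pretransitive_iff.mp h.two hab hab.symm

theorem Hyp.comm (h : Hyp G Ω i) {x y : G} {a b : Ω} (hab : a ≠ b) (xa : x • a = a) (xb : x • b = b)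
    (ya : y • a = a) (yb : y • b = b) : x * y = y * x := by
  obtain ⟨s, sa, sb⟩ := h.swap hab
  exact Char.comm_of_inverts (H := stabilizer G a ⊓ stabilizer G b)
    (fun z hz => h.inv hab sa sb hz.1 hz.2) x ⟨xa, xb⟩ y ⟨ya, yb⟩

theorem smul_fix {x y : G} (h : x * y = y * x) {a : Ω} (ha : y • a = a) : y • x • a = x • a := by
  rw [← mul_smul, ← h, mul_smul, ha]

/-- a set with three points: products of two swaps are transitive -/
theorem Hyp.trans (h : Hyp G Ω i) {F : Set Ω} (hF : 2 < F.ncard) {u w : Ω} (hu : u ∈ F) (hw : w ∈ F) :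
    ∃ y : G, y • u = w ∧ ∀ x : G, (∀ c ∈ F, x • c = c) → y * x = x * y := by
  by_cases e : u = w
  · exact ⟨1, by rw [one_smul, e], fun x _ => by rw [one_mul, mul_one]⟩
  obtain ⟨v, hv, h1⟩ := Set.exists_mem_notMem_of_ncard_lt_ncard (s := {u, w}) (t := F)
    (by rwa [Set.ncard_pair e])
  simp only [Set.mem_insert_iff, Set.mem_singleton_iff, not_or] at h1
  obtain ⟨s, su, sv⟩ := h.swap (Ne.symm h1.1)
  obtain ⟨r, rv, rw⟩ := h.swap h1.2
  refine ⟨r * s, by rw [mul_smul, su, rv], fun x hx => ?_⟩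
  have h2 := h.inv (Ne.symm h1.1) su sv (hx u hu) (hx v hv)
  have h3 := h.inv h1.2 rv rw (hx v hv) (hx w hw)
  calc _ = r * (s * x * s⁻¹) * s := by group
    _ = (r * x * r⁻¹)⁻¹ * r * s := by rw [h2]; group
    _ = _ := by rw [h3]; group

variable [Finite G] [Finite Ω]

theorem Hyp.fix_eq (h : Hyp G Ω i) {s y : G} (s1 : s ≠ 1) (ss : s * s = 1) (ys : y * s = s * y)
    (yy : y * y ≠ 1) : fixedBy Ω y = fixedBy Ω s := by
  refine Set.eq_of_subset_of_ncard_le (fun u hu => by_contra fun h1 => yy ?_)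
    (by rw [h.fix s s1 ss s s1 rfl, h.fix s s1 ss y (by rintro rfl; simp at yy) ys])
  have h2 := h.inv (Ne.symm h1) rfl (by rw [← mul_smul, ss, one_smul]) hu (smul_fix ys.symm hu)
  rwa [← ys, mul_inv_cancel_right, eq_inv_iff_mul_eq_one] at h2

theorem Hyp.le_two (h : Hyp G Ω i) : i ≤ 2 := by
  classical
  by_contra! hi
  have key : ∀ s : G, s ≠ 1 → s * s = 1 → ∀ y, y * s = s * y → y * y = 1 := by
    intro s s1 ss y ys
    by_contra yy
    have hs := h.fix s s1 ss s s1 rfl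
    obtain ⟨u, hu, w, hw, huw⟩ := (Set.one_lt_ncard (s := fixedBy Ω s)).mp (by omega)
    obtain ⟨z, zu, hz⟩ := h.trans (F := fixedBy Ω s) (by omega) hu hw
    have h1 : z * z = 1 := by_contra fun zz =>
      huw (((h.fix_eq s1 ss (hz s fun _ => id) zz).ge hu).symm.trans zu)
    have h2 := h.fix_eq s1 ss ys yy
    have h3 := h.inv huw zu (by rw [← zu, ← mul_smul, h1, one_smul]) (h2.ge hu) (h2.ge hw)
    rw [hz y fun _ hc => h2.ge hc, mul_inv_cancel_right, eq_inv_iff_mul_eq_one] at h3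
    exact yy h3
  have full : ∀ s : G, s ≠ 1 → s * s = 1 → ∀ y, y * s = s * y → ∀ u ∈ fixedBy Ω s, y • u = u →
      ∀ w ∈ fixedBy Ω s, y • w = w := by
    intro s s1 ss y ys u hu yu w hw
    obtain ⟨z, rfl, hz⟩ := h.trans (F := fixedBy Ω s) (by rwa [h.fix s s1 ss s s1 rfl]) hu hw
    have zs := hz s fun _ => id
    refine smul_fix ?_ yu
    rw [← inv_eq_of_mul_eq_one_right (key s s1 ss (z * y) (Commute.mul_left zs ys)), mul_inv_rev,
      inv_eq_of_mul_eq_one_right (key s s1 ss z zs), inv_eq_of_mul_eq_one_right (key s s1 ss y ys)]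
  obtain ⟨t, t1, tt⟩ := h.ex
  have ht := h.fix t t1 tt t t1 rfl
  have hc := h.card t t1 tt
  have := Fact.mk Nat.prime_two
  have hP : IsPGroup 2 (centralizer ({t} : Set G)) := fun g =>
    ⟨1, Subtype.ext (by rw [pow_one, coe_pow, sq]; exact key t t1 tt g (mem_centralizer_singleton_iff.mp g.2))⟩
  obtain ⟨a, ha, b, hb, hab⟩ := (Set.one_lt_ncard (s := fixedBy Ω t)).mp (by omega)
  let H := stabilizer G a ⊓ stabilizer G (fixedBy Ω t)
  have h1 := Pres.card_inf_stabilizer_mul H b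
  have h2 := Pres.card_inf_stabilizer_mul (stabilizer G a) b
  have h3 : {c | ∃ g ∈ stabilizer G a, g • b = c} = Set.univ \ {a} := by
    ext c
    refine ⟨fun ⟨g, hg, e⟩ => ⟨trivial, fun e' => hab (smul_left_cancel g (hg.trans (e.trans e').symm))⟩,
      fun hc => ?_⟩
    obtain ⟨g, h3, h4⟩ := is_two_pretransitive_iff.mp h.two hab (Ne.symm hc.2)
    exact ⟨g, h3, h4⟩
  have h4 : ∀ g : G, g • a = a → g • b ∈ fixedBy Ω t → g ∈ H := fun g ga gb => by
    refine ⟨ga, ?_⟩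
    have e1 : g * t * g⁻¹ ≠ 1 := by rwa [Ne, conj_eq_one_iff]
    have e2 : g * t * g⁻¹ * (g * t * g⁻¹) = 1 := by rw [conj_mul, tt, mul_one, mul_inv_cancel]
    have e3 : (g * t * g⁻¹) • a = a := by rw [mul_smul, mul_smul, inv_smul_eq_iff.mpr ga.symm, ha, ga]
    refine mem_stabilizer_iff.mpr ?_
    rw [smul_fixedBy]
    exact Set.eq_of_subset_of_ncard_le (full _ e1 e2 t (h.comm (fun e => hab (smul_left_cancel g
      (ga.trans e))) ha gb e3 (by rw [mul_smul, mul_smul, inv_smul_smul, hb])) a e3 ha)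
      (by rw [ncard_fixedBy_conj])
  have h5 : {c | ∃ g ∈ H, g • b = c} = fixedBy Ω t \ {a} := by
    ext c
    refine ⟨fun ⟨g, hg, e⟩ => ⟨e ▸ hg.2.le (Set.smul_mem_smul_set hb), (h3.le ⟨g, hg.1, e⟩).2⟩,
      fun hc => ?_⟩
    obtain ⟨g, h5, h6⟩ := h3.ge ⟨trivial, hc.2⟩
    exact ⟨g, h4 g h5 (h6 ▸ hc.1), h6⟩
  rw [h3, Set.ncard_sdiff_singleton_of_mem (Set.mem_univ a), Set.ncard_univ] at h2
  rw [h5, Set.ncard_sdiff_singleton_of_mem ha, ht, show H ⊓ stabilizer G b =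
    stabilizer G a ⊓ stabilizer G b from le_antisymm (inf_le_inf_right _ inf_le_left)
      fun g hg => ⟨h4 g hg.1 (hg.2.symm ▸ hb), hg.2⟩] at h1
  have h6 := card_dvd_of_le (inf_le_left : H ≤ _)
  rw [← h1, ← h2, Nat.mul_dvd_mul_iff_left Nat.card_pos] at h6
  obtain ⟨k, hk⟩ := hP.exists_card_eq
  obtain ⟨l, -, hl⟩ := (Nat.dvd_prime_pow Nat.prime_two (m := k)).mp
    ((Nat.dvd_add_iff_left (dvd_refl (i - 1))).mpr (by convert h6 using 1; omega))
  have h7 : 2 ∣ 2 ^ l := dvd_pow_self 2 (by rintro rfl; simp at hl; omega)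
  have h8 : 2 ∣ Nat.card (centralizer ({t} : Set G)) := by
    rw [← Block.orderOf_eq_two tt t1]
    exact Subgroup.orderOf_dvd_natCard _ (mem_centralizer_singleton_iff.mpr rfl)
  obtain ⟨c, h9⟩ := hP.nonempty_fixed_point_of_prime_not_dvd_card Ω (by omega)
  have h10 : c ∈ fixedBy Ω t := h9 ⟨t, mem_centralizer_singleton_iff.mpr rfl⟩
  have h11 : ∀ w ∈ fixedBy Ω t, c = w := fun w hw => by
    obtain ⟨z, rfl, hz⟩ := h.trans (F := fixedBy Ω t) (by omega) h10 hw
    exact (h9 ⟨z, mem_centralizer_singleton_iff.mpr (hz t fun _ => id)⟩).symm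
  exact hab ((h11 a ha).symm.trans (h11 b hb))

theorem Hyp.fix_two (h : Hyp G Ω 2) {a b : Ω} (hab : a ≠ b) :
    ∃ s : G, s ≠ 1 ∧ s * s = 1 ∧ fixedBy Ω s = {a, b} := by
  obtain ⟨t, t1, tt⟩ := h.ex
  obtain ⟨u, v, huv, h1⟩ := Set.ncard_eq_two.mp (h.fix t t1 tt t t1 rfl)
  obtain ⟨g, rfl, rfl⟩ := is_two_pretransitive_iff.mp h.two huv hab
  exact ⟨g * t * g⁻¹, by rwa [Ne, conj_eq_one_iff], by rw [conj_mul, tt, mul_one, mul_inv_cancel],
    by rw [← smul_fixedBy, h1, Set.smul_set_insert, Set.smul_set_singleton]⟩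

theorem three_le {x : G} {a b c : Ω} (hab : a ≠ b) (hbc : b ≠ c) (hac : a ≠ c) (ha : x • a = a)
    (hb : x • b = b) (hc : x • c = c) : 2 < (fixedBy Ω x).ncard :=
  (Set.two_lt_ncard_iff).mpr ⟨a, b, c, ha, hb, hc, hab, hac, hbc⟩

theorem Hyp.psl2 (h : Hyp G Ω 2) : ∃ (F : Type) (_ : Field F) (_ : Fintype F),
    Nonempty (G ≃* Matrix.ProjectiveSpecialLinearGroup (Fin 2) F) := by
  have h3 : Char.NoThreeFixed G Ω := fun x a b c hab hbc hac xa xb xc => by_contra fun x1 => by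
    obtain ⟨s, s1, ss, hs⟩ := h.fix_two hab
    have := h.fix s s1 ss x x1 (h.comm hab xa xb (hs.ge (by simp)) (hs.ge (by simp)))
    have := three_le hab hbc hac xa xb xc
    omega
  obtain ⟨t, t1, tt⟩ := h.ex
  obtain ⟨a, b, hab, ht⟩ := Set.ncard_eq_two.mp (h.fix t t1 tt t t1 rfl)
  have ta : t • a = a := ht.ge (by simp)
  have tb : t • b = b := ht.ge (by simp)
  obtain ⟨P, hP⟩ := Char.exists_isZKernel h.two h3 hab
  obtain ⟨w, wa, wb⟩ := h.swap hab
  have d : PSL2Rec.ZData G a b P w := ⟨hab, fun x hx => hP.smul_eq hx, fun g hg x hx => hP.conj_mem hg hx,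
    fun y hy => hP.trans b y hab.symm hy, fun x hx h => hP.eq_one hx hab.symm h,
    fun g y h1 h2 h4 h5 h6 => h3 g a b y hab h2.symm h1.symm h4 h5 h6, wa, wb⟩
  have hi : ∀ k ∈ stabilizer G a ⊓ stabilizer G b, w * k * w⁻¹ = k⁻¹ :=
    fun k hk => h.inv hab wa wb hk.1 hk.2
  have hc := Char.comm_of_inverts (Char.inverts_of_fpf (H := P) tt (fun x hx => hP.conj_mem ta hx)
    fun x hx e => hP.eq_one_of_commute h3 ta (hP.notMem t1 hab.symm tb) hx e.symm)
  have h1 := Pres.card_inf_stabilizer_mul (centralizer ({t} : Set G)) a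
  rw [show centralizer ({t} : Set G) ⊓ stabilizer G a = stabilizer G a ⊓ stabilizer G b from
    le_antisymm (fun g hg => ⟨hg.2, ((ht.le (smul_fix (mem_centralizer_singleton_iff.mp hg.1)
      tb)).resolve_left fun e => hab (smul_left_cancel g (hg.2.trans e.symm)))⟩)
      fun g hg => ⟨mem_centralizer_singleton_iff.mpr (h.comm hab hg.1 hg.2 ta tb), hg.1⟩,
    show {c | ∃ g ∈ centralizer ({t} : Set G), g • a = c} = {a, b} from subset_antisymm
      (fun c ⟨g, hg, e⟩ => e ▸ ht.le (smul_fix (mem_centralizer_singleton_iff.mp hg) ta))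
      (by
        rintro c (rfl | rfl)
        · exact ⟨1, one_mem _, one_smul _ _⟩
        · refine ⟨w, mem_centralizer_singleton_iff.mpr ?_, wa⟩
          rw [← mul_inv_eq_iff_eq_mul, hi t ⟨ta, tb⟩, inv_eq_of_mul_eq_one_right tt]),
    Set.ncard_pair hab] at h1
  have h2 := h.card t t1 tt
  have h4 := hP.card
  have h5 := (one_lt_card_iff_ne_bot (stabilizer G a ⊓ stabilizer G b)).mpr
    fun e => t1 (mem_bot.mp (e ▸ ⟨ta, tb⟩))
  obtain ⟨p, hp, hp1⟩ : ∃ p ∈ P, p ≠ 1 := (bot_or_exists_ne_one P).resolve_left (by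
    rw [← Ne, ← one_lt_card_iff_ne_bot]
    omega)
  obtain ⟨F, _, _, hF⟩ := PSL2Rec.exists_field_of_card d.norm d.semi (by omega)
    (Char.comm_of_inverts hi) hp hp1 (fun x hx => hc x hx p hp)
  rcases d.recognition hF (by omega) (Char.comm_of_inverts hi) le_rfl (by omega) hi hp hp1
    (fun x hx => hc x hx p hp) with ⟨-, -, h2⟩ | ⟨h2, -⟩
  · omega
  · exact ⟨F, inferInstance, inferInstance, h2⟩

theorem Hyp.isolated (h : Hyp G Ω i) (hi : i ≤ 1) {x : G} (x1 : x ≠ 1)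
    (hx : 2 < (fixedBy Ω x).ncard) : ∃ (s : G) (a : Ω), s ≠ 1 ∧ s * s = 1 ∧ s • a = a ∧ IsIsolated s := by
  have h1 : ∀ y : G, y * x = x * y → y * y = 1 → y = 1 := fun y yx yy => by_contra fun y1 => by
    have := h.fix y y1 yy x x1 yx.symm
    omega
  obtain ⟨a, ha, b, hb, hab⟩ := (Set.one_lt_ncard (s := fixedBy Ω x)).mp (by omega)
  obtain ⟨r, ra, rb⟩ := h.swap hab
  obtain ⟨y, yb, hy⟩ := h.trans hx hb ha
  have h2 : y * r * x * (y * r)⁻¹ = x⁻¹ := by
    calc _ = y * (r * x * r⁻¹) * y⁻¹ := by group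
      _ = _ := by rw [h.inv hab ra rb ha hb, (show Commute y x from hy x fun _ => id).inv_right.eq,
        mul_inv_cancel_right]
  have h3 : (y * r) • a = a := by rw [mul_smul, ra, yb]
  generalize y * r = w at h2 h3
  have h4 : Commute (w ^ 2) x := by
    rw [sq]
    calc _ = w * (w * x * w⁻¹) * w := by group
      _ = (w * x * w⁻¹)⁻¹ * w * w := by nth_rw 1 [h2]; group
      _ = _ := by rw [h2]; group
  obtain ⟨m, hm⟩ : Odd (orderOf (w ^ 2)) := Nat.not_even_iff_odd.mp fun ⟨m, hm⟩ => by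
    have := orderOf_pos (w ^ 2)
    exact pow_ne_one_of_lt_orderOf (n := m) (by omega) (by omega)
      (h1 _ (h4.pow_left m) (by rw [← pow_add, ← hm, pow_orderOf_eq_one]))
  have ss : w ^ (2 * m + 1) * w ^ (2 * m + 1) = 1 := by
    rw [← sq, ← pow_mul, mul_comm, pow_mul, ← hm, pow_orderOf_eq_one]
  have sx : w ^ (2 * m + 1) * x * (w ^ (2 * m + 1))⁻¹ = x⁻¹ := by
    calc _ = w * ((w ^ 2) ^ m * x * ((w ^ 2) ^ m)⁻¹) * w⁻¹ := by group
      _ = _ := by rw [(h4.pow_left m).eq, mul_inv_cancel_right, h2]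
  have sa : w ^ (2 * m + 1) • a = a := (stabilizer G a).pow_mem h3 _
  generalize w ^ (2 * m + 1) = s at ss sx sa
  have s1 : s ≠ 1 := by
    rintro rfl
    exact x1 (h1 x rfl (by simpa [eq_inv_iff_mul_eq_one] using sx))
  have h5 : ∀ g, g ≠ 1 → g * s = s * g → ∀ u v : Ω, g • u = u → g • v = v → u = v :=
    fun g g1 gs u v hu hv => (Set.ncard_le_one (s := fixedBy Ω g)).mp (h.fix s s1 ss g g1 gs ▸ hi) u hu v hv
  have h6 : ∀ g, g * s = s * g → g • a = a := fun g gs => h5 s s1 rfl _ _ (smul_fix gs sa) sa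
  have h7 := Pres.card_inf_stabilizer_mul (centralizer ({s} : Set G)) b
  rw [show centralizer ({s} : Set G) ⊓ stabilizer G b = ⊥ from eq_bot_iff.mpr fun g hg =>
    by_contra fun g1 => hab (h5 g g1 (mem_centralizer_singleton_iff.mp hg.1) _ _
      (h6 g (mem_centralizer_singleton_iff.mp hg.1)) hg.2), card_bot, one_mul] at h7
  have h8 : {c | ∃ g ∈ centralizer ({s} : Set G), g • b = c} = Set.univ \ {a} :=
    Set.eq_of_subset_of_ncard_le (fun c ⟨g, hg, e⟩ => ⟨trivial, fun e' => hab (smul_left_cancel g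
      ((h6 g (mem_centralizer_singleton_iff.mp hg)).trans (e.trans e').symm))⟩) (by
      rw [h7, Set.ncard_sdiff_singleton_of_mem (Set.mem_univ a), Set.ncard_univ]
      have := h.card s s1 ss
      omega)
  refine ⟨s, a, s1, ss, sa, fun g hg => ?_⟩
  have ga : g • a = a := h5 (g * s * g⁻¹) (by rwa [Ne, conj_eq_one_iff]) hg.symm _ _
    (by rw [mul_smul, mul_smul, inv_smul_smul, sa]) (h6 _ hg.symm)
  obtain ⟨c, hc, e⟩ := h8.ge (show g⁻¹ • b ∈ _ from ⟨trivial, fun e => hab (by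
    rw [← ga, ← Set.mem_singleton_iff.mp e, smul_inv_smul])⟩)
  rw [mem_centralizer_singleton_iff] at hc
  have h9 := h.comm hab (x := g * c) (by rw [mul_smul, h6 c hc, ga]) (by rw [mul_smul, e, smul_inv_smul])
    ha hb
  have h10 : g * s * g⁻¹ = g * c * s * (g * c)⁻¹ := by rw [mul_assoc g c, hc]; group
  have h11 := h1 (s * (g * s * g⁻¹)) (by
    rw [h10]
    generalize g * c = d at h9
    calc _ = s * d * s * (d⁻¹ * x * d) * d⁻¹ := by group
      _ = s * d * (s * x * s⁻¹) * s * d⁻¹ := by rw [mul_assoc d⁻¹, ← h9]; group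
      _ = s * (d * x * d⁻¹)⁻¹ * s⁻¹ * s * d * s * d⁻¹ := by rw [sx]; group
      _ = (s * x * s⁻¹)⁻¹ * s * d * s * d⁻¹ := by rw [h9]; group
      _ = _ := by rw [sx]; group) (by
    rw [hg.symm.mul_mul_mul_comm, ss, conj_mul, ss]; group)
  rw [← inv_eq_of_mul_eq_one_right h11, inv_eq_of_mul_eq_one_right ss]

variable [FaithfulSMul G Ω]

theorem regular_of_solvable (h : IsMultiplyPretransitive G Ω 2) (N : Subgroup G) [N.Normal]
    (hN : N ≠ ⊥) (hs : Group.IsSolvable N) : ∃ R : Subgroup G, R.Normal ∧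
      (∀ x y : Ω, ∃ r ∈ R, r • x = y) ∧ ∀ x : Ω, ∀ r ∈ R, r • x = x → r = 1 := by
  obtain ⟨M, _, h1, -, h2, -⟩ := Local.exists_normal_commutator_le (bot_lt_iff_ne_bot.mpr hN) hs
  have := Char.normal_isPretransitive (isPreprimitive_of_is_two_pretransitive h) M h1.ne'
  have h3 : ∀ x y : Ω, ∃ r ∈ M, r • x = y := fun x y => by
    obtain ⟨r, hr⟩ := exists_smul_eq M x y
    exact ⟨r, r.2, hr⟩
  refine ⟨M, ‹_›, h3, fun x r hr e => eq_of_smul_eq_smul fun y : Ω => ?_⟩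
  obtain ⟨g, hg, rfl⟩ := h3 x y
  rw [one_smul, smul_fix (commutatorElement_eq_one_iff_mul_comm.mp
    (h2 (commutator_mem_commutator hg hr))) e]

end

theorem Hyp.main {G Ω : Type u} [Group G] [MulAction G Ω] [Finite G] [Finite Ω] [FaithfulSMul G Ω]
    {i : ℕ} (hFT : OddOrderThm.{u}) (h : Hyp G Ω i) :
    (∃ (F : Type) (_ : Field F) (_ : Fintype F),
      Nonempty (G ≃* Matrix.ProjectiveSpecialLinearGroup (Fin 2) F)) ∨ Lie.IsoSuzuki G ∨
    (∃ R : Subgroup G, R.Normal ∧ (∀ x y : Ω, ∃ r ∈ R, r • x = y) ∧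
      ∀ x : Ω, ∀ r ∈ R, r • x = x → r = 1) := by
  by_cases h2 : i = 2
  · exact Or.inl (h2 ▸ h).psl2
  have hi : i ≤ 1 := by have := h.le_two; omega
  have := h.two
  have : IsPretransitive G Ω := isPretransitive_of_is_two_pretransitive
  obtain ⟨t, t1, tt⟩ := h.ex
  obtain ⟨a, ha⟩ := exists_moved (Ω := Ω) t1
  by_cases h3 : Char.NoThreeFixed G Ω
  · by_cases h4 : stabilizer G a ⊓ stabilizer G (t • a) = ⊥
    · obtain ⟨K, h5, -, h6, h7, -⟩ := Char.frobenius_perm (G := G) (fun g u v huv gu gv => by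
        obtain ⟨k, rfl, rfl⟩ := is_two_pretransitive_iff.mp h.two ha.symm huv
        have : k⁻¹ * g * k ∈ stabilizer G a ⊓ stabilizer G (t • a) :=
          ⟨show _ • a = a by rw [mul_smul, mul_smul, gu, inv_smul_smul],
            show _ • t • a = _ by rw [mul_smul, mul_smul, gv, inv_smul_smul]⟩
        rw [h4, mem_bot] at this
        exact conj_eq_one_iff.mp (by rwa [inv_inv] : k⁻¹ * g * k⁻¹⁻¹ = 1)) a
      refine Or.inr (Or.inr ⟨K, h5, fun x y => ?_, fun x r hr e => ?_⟩)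
      · obtain ⟨r, hr⟩ := exists_smul_eq K x y
        exact ⟨r, r.2, hr⟩
      · have : (⟨r, hr⟩ : K) ∈ stabilizer K x := e
        simpa [h7 x] using this
    obtain ⟨K, hK⟩ := Char.exists_isZKernel h.two h3 ha.symm
    have := Fact.mk Nat.prime_two
    let D : Zass.ZData G Ω := ⟨a, t • a, K, stabilizer G a ⊓ stabilizer G (t • a), t, ha.symm, h.two,
      h3, hK, fun _ => Iff.rfl, tt, rfl,
      fun k hk => h.inv ha.symm rfl (by rw [← mul_smul, tt, one_smul]) hk.1 hk.2,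
      Nat.not_even_iff_odd.mp fun he => by
        obtain ⟨s, hs⟩ := exists_prime_orderOf_dvd_card' 2 he.two_dvd
        have s1 : s.1 ≠ 1 := fun e => by simp [show s = 1 from Subtype.ext e] at hs
        exact ha ((Set.ncard_le_one (s := fixedBy Ω s.1)).mp (h.fix s s1 (congrArg Subtype.val
          (Block.mul_self_of_orderOf hs)) s s1 rfl ▸ hi) _ s.2.2 _ s.2.1),
      (one_lt_card_iff_ne_bot _).mpr h4⟩
    have := Fintype.ofFinite G
    have := D.isNilpotent
    rcases D.classify with ⟨F, _, _, -, h5⟩ | ⟨k, h5, h6, h7⟩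
    · exact Or.inl ⟨F, inferInstance, inferInstance, h5⟩
    have := Fintype.ofFinite (GaloisField 2 (2 * k + 1))
    have hF : Fintype.card (GaloisField 2 (2 * k + 1)) = 2 ^ (2 * k + 1) := by
      rw [← Nat.card_eq_fintype_card, GaloisField.card 2 _ (by omega)]
    have : Suzuki.IsSz (GaloisField 2 (2 * k + 1)) k := ⟨h5, hF⟩
    exact Or.inr (Or.inl ⟨_, _, _, k, h5, hF, Zass.SuzZ.equiv ⟨Ω, _, inferInstance, inferInstance, D,
      IsPGroup.of_card (h6.trans (pow_mul _ _ _).symm), h6, h7⟩ _⟩)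
  · simp only [Char.NoThreeFixed, not_forall] at h3
    obtain ⟨x, a, b, c, hab, hbc, hac, xa, xb, xc, x1⟩ := h3
    obtain ⟨s, u, s1, ss, su, hs⟩ := h.isolated hi x1 (three_le hab hbc hac xa xb xc)
    refine Or.inr (Or.inr (regular_of_solvable h.two (pPrimeCore 2 G) (fun e => s1 ?_)
      (hFT _ (Nat.coprime_two_right.mp (Local.coprime_card_pPrimeCore 2)))))
    refine eq_of_smul_eq_smul fun v : Ω => ?_
    obtain ⟨g, rfl⟩ := exists_smul_eq G u v
    have := Block.zstar ss hs g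
    rw [e, mem_bot, mul_inv_eq_one, mul_inv_eq_iff_eq_mul] at this
    rw [one_smul, smul_fix this su]

end Cfsg.Agent.Fix2T
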